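import Cfsg.Agent.H936.AutPow

/-!
# Perfect central extensions of `T ^ s` (helper383, S5731 AF4)

`G` perfect, `π : G → T ^ s` surjective with kernel `Z(G)`.

* `Li π i` : the derived group of the preimage of the `i`-th factor;
* `Li_comm` : it commutes with the preimages of the other factors;
* `iSup_Li` : these groups generate `G`;
* `perfect_Li`, `center_Li`, `equivLi` : `L_i` is perfect, `Z(L_i) = L_i ∩ Z(G)`, `L_i / Z(L_i) ≃ T`.
-/

set_option autoImplicit false

open scoped commutatorElement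

namespace Cfsg.Agent.H383.Kap

open Subgroup

universe v w

section

variable {G : Type v} [Group G] {T : Type w} [Group T] {s : ℕ}

/-- the preimage of the `i`-th factor -/
def Mi (π : G →* (Fin s → T)) (i : Fin s) : Subgroup G where
  carrier := {g | ∀ j, j ≠ i → π g j = 1}
  one_mem' := by
    intro j _
    rw [map_one]
    rfl
  mul_mem' := by
    intro a b ha hb j hj
    rw [map_mul, Pi.mul_apply, ha j hj, hb j hj, one_mul]
  inv_mem' := by
    intro a ha j hj
    rw [map_inv, Pi.inv_apply, ha j hj, inv_one]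

theorem mem_Mi {π : G →* (Fin s → T)} {i : Fin s} {g : G} : g ∈ Mi π i ↔ ∀ j, j ≠ i → π g j = 1 := Iff.rfl

/-- the `i`-th factor -/
def Li (π : G →* (Fin s → T)) (i : Fin s) : Subgroup G := ⁅Mi π i, Mi π i⁆

theorem Li_le (π : G →* (Fin s → T)) (i : Fin s) : Li π i ≤ Mi π i := by
  unfold Li
  rw [commutator_le]
  intro a ha b hb
  exact (Mi π i).mul_mem ((Mi π i).mul_mem ((Mi π i).mul_mem ha hb) ((Mi π i).inv_mem ha)) ((Mi π i).inv_mem hb)

variable {π : G →* (Fin s → T)} (hπ : Function.Surjective π) (hk : π.ker = center G)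

include hk in
theorem comm_le {i j : Fin s} (hij : i ≠ j) : ⁅Mi π i, Mi π j⁆ ≤ center G := by
  rw [commutator_le, ← hk]
  intro a ha b hb
  rw [MonoidHom.mem_ker, map_commutatorElement]
  funext l
  rw [commutatorElement_def]
  simp only [Pi.mul_apply, Pi.inv_apply, Pi.one_apply]
  by_cases hl : l = i
  · subst hl
    rw [hb l hij]
    group
  · rw [ha l hl]
    group

include hk in
theorem Li_comm {i j : Fin s} (hij : i ≠ j) {a b : G} (ha : a ∈ Li π i) (hb : b ∈ Mi π j) : a * b = b * a := by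
  have hz : ∀ K : Subgroup G, ⁅center G, K⁆ = ⊥ := by
    intro K
    rw [eq_bot_iff, commutator_le]
    intro x hx y _
    rw [mem_bot, commutatorElement_eq_one_iff_mul_comm]
    exact (mem_center_iff.1 hx y).symm
  have h1 : ⁅⁅Mi π i, Mi π j⁆, Mi π i⁆ = ⊥ := by
    rw [eq_bot_iff, ← hz (Mi π i)]
    exact commutator_mono (comm_le hk hij) le_rfl
  have h2 : ⁅⁅Mi π j, Mi π i⁆, Mi π i⁆ = ⊥ := by
    rw [commutator_comm (Mi π j) (Mi π i)]
    exact h1
  have h3 : ⁅⁅Mi π i, Mi π i⁆, Mi π j⁆ = ⊥ := commutator_commutator_eq_bot_of_rotate h1 h2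
  have h4 : ⁅a, b⁆ ∈ ⁅⁅Mi π i, Mi π i⁆, Mi π j⁆ := commutator_mem_commutator ha hb
  rw [h3, mem_bot, commutatorElement_eq_one_iff_mul_comm] at h4
  exact h4

include hπ in
/-- `L_i` maps onto the `i`-th factor -/
theorem exists_Li (hT : commutator T = ⊤) (i : Fin s) (t : T) : ∃ g ∈ Li π i, π g = Pi.mulSingle i t := by
  classical
  set ι : T →* (Fin s → T) := MonoidHom.mulSingle (fun _ => T) i with hι
  have h1 : ι.range ≤ (Mi π i).map π := by
    rintro _ ⟨t, rfl⟩
    obtain ⟨g, hg⟩ := hπ (ι t)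
    refine ⟨g, ?_, hg⟩
    intro j hj
    rw [hg, hι, MonoidHom.mulSingle_apply, Pi.mulSingle_eq_of_ne hj]
  have h2 : ι.range ≤ (Li π i).map π := by
    have h3 : (Li π i).map π = ⁅(Mi π i).map π, (Mi π i).map π⁆ := map_commutator _ _ _
    rw [h3]
    refine le_trans ?_ (commutator_mono h1 h1)
    rw [MonoidHom.range_eq_map, ← map_commutator]
    apply map_mono
    rw [← _root_.commutator_def T, hT]
  obtain ⟨g, hg, hgt⟩ := h2 ⟨t, rfl⟩
  exact ⟨g, hg, hgt⟩

include hπ hk in
theorem iSup_Li (hG : commutator G = ⊤) (hT : commutator T = ⊤) : ⨆ i, Li π i = ⊤ := by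
  classical
  set K : Subgroup G := ⨆ i, Li π i with hK
  have h1 : ∀ x : Fin s → T, x ∈ K.map π := by
    intro x
    refine pi_mem_of_mulSingle_mem x fun i => ?_
    obtain ⟨g, hg, hgt⟩ := exists_Li hπ hT i (x i)
    exact ⟨g, (le_iSup (Li π) i) hg, hgt⟩
  have h2 : ∀ g : G, ∃ k ∈ K, ∃ z ∈ center G, g = k * z := by
    intro g
    obtain ⟨k, hk1, hk2⟩ := h1 (π g)
    refine ⟨k, hk1, k⁻¹ * g, ?_, by group⟩
    rw [← hk, MonoidHom.mem_ker, map_mul, map_inv, hk2, inv_mul_cancel]
  rw [eq_top_iff, ← hG, commutator_def, commutator_le]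
  intro a _ b _
  obtain ⟨k, hk1, z, hz, rfl⟩ := h2 a
  obtain ⟨l, hl1, y, hy, rfl⟩ := h2 b
  have h3 : ⁅k * z, l * y⁆ = ⁅k, l⁆ := by
    have hz' := mem_center_iff.1 hz
    have hy' := mem_center_iff.1 hy
    simp only [commutatorElement_def, mul_inv_rev]
    calc k * z * (l * y) * (z⁻¹ * k⁻¹) * (y⁻¹ * l⁻¹) = k * (z * (l * y)) * z⁻¹ * k⁻¹ * y⁻¹ * l⁻¹ := by group
      _ = k * ((l * y) * z) * z⁻¹ * k⁻¹ * y⁻¹ * l⁻¹ := by rw [← hz' (l * y)]
      _ = k * l * (y * k⁻¹) * y⁻¹ * l⁻¹ := by group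
      _ = k * l * (k⁻¹ * y) * y⁻¹ * l⁻¹ := by rw [← hy' k⁻¹]
      _ = k * l * k⁻¹ * l⁻¹ := by group
  rw [h3]
  exact K.mul_mem (K.mul_mem (K.mul_mem hk1 hl1) (K.inv_mem hk1)) (K.inv_mem hl1)

include hπ hk in
/-- `L_i` is perfect -/
theorem Li_eq (hT : commutator T = ⊤) (i : Fin s) : ⁅Li π i, Li π i⁆ = Li π i := by
  classical
  apply le_antisymm
  · rw [commutator_le]
    intro a ha b hb
    exact (Li π i).mul_mem ((Li π i).mul_mem ((Li π i).mul_mem ha hb) ((Li π i).inv_mem ha)) ((Li π i).inv_mem hb)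
  · conv_lhs => unfold Li
    rw [commutator_le]
    have h2 : ∀ g ∈ Mi π i, ∃ k ∈ Li π i, ∃ z ∈ center G, g = k * z := by
      intro g hg
      obtain ⟨k, hk1, hk2⟩ := exists_Li hπ hT i (π g i)
      refine ⟨k, hk1, k⁻¹ * g, ?_, by group⟩
      rw [← hk, MonoidHom.mem_ker, map_mul, map_inv, hk2, inv_mul_eq_one]
      funext j
      by_cases hj : j = i
      · subst hj
        rw [Pi.mulSingle_eq_same]
      · rw [Pi.mulSingle_eq_of_ne hj, hg j hj]
    intro a ha b hb
    obtain ⟨k, hk1, z, hz, rfl⟩ := h2 a ha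
    obtain ⟨l, hl1, y, hy, rfl⟩ := h2 b hb
    have h3 : ⁅k * z, l * y⁆ = ⁅k, l⁆ := by
      have hz' := mem_center_iff.1 hz
      have hy' := mem_center_iff.1 hy
      simp only [commutatorElement_def, mul_inv_rev]
      calc k * z * (l * y) * (z⁻¹ * k⁻¹) * (y⁻¹ * l⁻¹) = k * (z * (l * y)) * z⁻¹ * k⁻¹ * y⁻¹ * l⁻¹ := by group
        _ = k * ((l * y) * z) * z⁻¹ * k⁻¹ * y⁻¹ * l⁻¹ := by rw [← hz' (l * y)]
        _ = k * l * (y * k⁻¹) * y⁻¹ * l⁻¹ := by group
        _ = k * l * (k⁻¹ * y) * y⁻¹ * l⁻¹ := by rw [← hy' k⁻¹]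
        _ = k * l * k⁻¹ * l⁻¹ := by group
    rw [h3]
    exact commutator_mem_commutator hk1 hl1

include hπ hk in
theorem perfect_Li (hT : commutator T = ⊤) (i : Fin s) : commutator ↥(Li π i) = ⊤ := by
  have h1 := map_subtype_commutator (Li π i)
  rw [Li_eq hπ hk hT i] at h1
  rw [eq_top_iff]
  intro x _
  have h2 : (x : G) ∈ (commutator ↥(Li π i)).map (Li π i).subtype := by
    rw [h1]
    exact x.2
  obtain ⟨y, hy, hyx⟩ := h2
  have h3 : y = x := Subtype.ext hyx
  rwa [← h3]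

include hπ hk in
/-- the centre of `L_i` is central in `G` -/
theorem mem_center_of (hG : commutator G = ⊤) (hT : commutator T = ⊤) {i : Fin s} {x : G} (hx : x ∈ Li π i)
    (h : ∀ y ∈ Li π i, y * x = x * y) : x ∈ center G := by
  have h1 : ⨆ j, Li π j ≤ centralizer ({x} : Set G) := by
    refine iSup_le fun j => ?_
    intro y hy
    rw [mem_centralizer_singleton_iff]
    by_cases hj : j = i
    · subst hj
      exact h y hy
    · exact Li_comm hk hj hy (Li_le π i hx)
  rw [iSup_Li hπ hk hG hT] at h1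
  rw [mem_center_iff]
  intro g
  exact mem_centralizer_singleton_iff.1 (h1 (mem_top g))

/-- the projection of `L_i` onto `T` -/
def prL (π : G →* (Fin s → T)) (i : Fin s) : ↥(Li π i) →* T :=
  ((Pi.evalMonoidHom (fun _ => T) i).comp π).comp (Li π i).subtype

theorem prL_apply (i : Fin s) (x : ↥(Li π i)) : prL π i x = π (x : G) i := rfl

include hπ in
theorem prL_surjective (hT : commutator T = ⊤) (i : Fin s) : Function.Surjective (prL π i) := by
  classical
  intro t
  obtain ⟨g, hg, hgt⟩ := exists_Li hπ hT i t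
  refine ⟨⟨g, hg⟩, ?_⟩
  rw [prL_apply]
  change π g i = t
  rw [hgt, Pi.mulSingle_eq_same]

include hπ hk in
theorem prL_ker (hG : commutator G = ⊤) (hT : commutator T = ⊤) (i : Fin s) :
    (prL π i).ker = center ↥(Li π i) := by
  ext x
  rw [MonoidHom.mem_ker, prL_apply, mem_center_iff]
  constructor
  · intro h y
    have h1 : (x : G) ∈ center G := by
      rw [← hk, MonoidHom.mem_ker]
      funext j
      by_cases hj : j = i
      · subst hj
        exact h
      · exact Li_le π i x.2 j hj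
    exact Subtype.ext (mem_center_iff.1 h1 y)
  · intro h
    have h1 : (x : G) ∈ center G := mem_center_of hπ hk hG hT x.2 fun y hy => congrArg Subtype.val (h ⟨y, hy⟩)
    rw [← hk, MonoidHom.mem_ker] at h1
    rw [h1]
    rfl

/-- `L_i / Z(L_i) ≃ T` -/
noncomputable def equivLi (hπ : Function.Surjective π) (hk : π.ker = center G) (hG : commutator G = ⊤)
    (hT : commutator T = ⊤) (i : Fin s) : ↥(Li π i) ⧸ center ↥(Li π i) ≃* T :=
  (QuotientGroup.quotientMulEquivOfEq (prL_ker hπ hk hG hT i)).symm.trans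
    (QuotientGroup.quotientKerEquivOfSurjective (prL π i) (prL_surjective hπ hT i))

theorem equivLi_mk (hG : commutator G = ⊤) (hT : commutator T = ⊤) (i : Fin s) (x : ↥(Li π i)) :
    equivLi hπ hk hG hT i (x : ↥(Li π i) ⧸ center ↥(Li π i)) = π (x : G) i := rfl

end

/-! ### Automorphisms of `T ^ s` -/

section aut

variable {T : Type w} [Group T] [Finite T] [IsSimpleGroup T] {s : ℕ}

/-- the number of automorphisms of `T ^ s` fixing `t` -/
theorem card_fix_le (hT : ¬ IsMulCommutative T) (t : Fin s → T) :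
    Nat.card {α : MulAut (Fin s → T) // α t = t} ≤
      s.factorial * ∏ i, Nat.card {a : MulAut T // a (t i) = t i} := by
  classical
  have hfin : Finite (MulAut T) := Finite.of_injective (fun f : MulAut T => (f : T → T)) DFunLike.coe_injective
  choose σ φ hφ using fun α : MulAut (Fin s → T) => H936.AutPow.exists_form hT α
  -- representatives
  have hc : ∀ i j : Fin s, ∃ c : MulAut T, (∃ a : MulAut T, a (t i) = t j) → c (t i) = t j := by
    intro i j
    by_cases h : ∃ a : MulAut T, a (t i) = t j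
    · obtain ⟨a, ha⟩ := h
      exact ⟨a, fun _ => ha⟩
    · exact ⟨1, fun h' => absurd h' h⟩
  choose c hc using hc
  have hmem : ∀ (α : {α : MulAut (Fin s → T) // α t = t}) (i : Fin s),
      ((c i (σ α.1 i))⁻¹ * φ α.1 i) (t i) = t i := by
    rintro ⟨α, hα⟩ i
    have h1 : φ α i (t i) = t (σ α i) := by
      rw [← hφ α t i, hα]
    have h2 := hc i (σ α i) ⟨φ α i, h1⟩
    rw [MulAut.mul_apply, h1, ← h2, MulAut.inv_apply_self]
  let f : {α : MulAut (Fin s → T) // α t = t} → Equiv.Perm (Fin s) × (∀ i, {a : MulAut T // a (t i) = t i}) :=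
    fun α => (σ α.1, fun i => ⟨(c i (σ α.1 i))⁻¹ * φ α.1 i, hmem α i⟩)
  have hf : Function.Injective f := by
    rintro ⟨α, hα⟩ ⟨β, hβ⟩ hαβ
    have h1 : σ α = σ β := congrArg Prod.fst hαβ
    have h2 : ∀ i, φ α i = φ β i := by
      intro i
      have h3 := congrArg Subtype.val (congrFun (congrArg Prod.snd hαβ) i)
      change (c i (σ α i))⁻¹ * φ α i = (c i (σ β i))⁻¹ * φ β i at h3
      rw [h1] at h3
      exact mul_left_cancel h3
    apply Subtype.ext
    ext x j
    obtain ⟨i, rfl⟩ := (σ α).surjective j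
    change α x (σ α i) = β x (σ α i)
    rw [hφ α x i, h1, hφ β x i, h2]
  have h := Nat.card_le_card_of_injective f hf
  rw [Nat.card_prod, Nat.card_pi, Nat.card_perm, Nat.card_fin] at h
  exact h

end aut

end Cfsg.Agent.H383.Kap
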